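import Mathlib
import Cfsg.Agent.H958.SixC.Ty
import Cfsg.Agent.H401.SixU3

/-!
# S5927, S5928, `sixc_two`: the products of a 3-dimensional stable subspace have the other type (helper905)
-/

set_option autoImplicit false

namespace Cfsg.Agent.H905.SixC

open Cfsg Cfsg.Lie Module
open Cfsg.Agent.ChevalleyStructure.E6Min.Tables
open Cfsg.Agent.H952.F4 (ev es sh cr tf)
open Cfsg.Agent.H952.F4.Jord

universe u

variable {F : Type u} [Field F]

/-- the relation of `z` on the products -/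
theorem rel_cr (h2 : (2 : F) = 0) {b : F} {T : (I27 → F) →ₗ[F] (I27 → F)} {w0 w1 w2 : I27 → F}
    (h01 : T (cr w0 w1) = cr w1 w2) (h02 : T (cr w0 w2) = cr w1 (w0 + b • w1 + b • w2))
    (h12 : T (cr w1 w2) = cr w2 (w0 + b • w1 + b • w2)) {y : I27 → F}
    (hy : y ∈ Submodule.span F ({cr w0 w1, cr w0 w2, cr w1 w2} : Set (I27 → F))) :
    T (T (T y)) = y + b • T y + b • T (T y) := by
  have e1 : T (cr w0 w2) = cr w0 w1 + b • cr w1 w2 := by
    rw [h02, cr_add_right, cr_add_right, cr_smul_right, cr_smul_right, cr_self, h2, zero_smul, smul_zero, add_zero,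
      cr_comm w1 w0]
  have e2 : T (cr w1 w2) = cr w0 w2 + b • cr w1 w2 := by
    rw [h12, cr_add_right, cr_add_right, cr_smul_right, cr_smul_right, cr_self, h2, zero_smul, smul_zero, add_zero,
      cr_comm w2 w0, cr_comm w2 w1]
  generalize cr w0 w1 = y1 at *
  generalize cr w0 w2 = y2 at *
  generalize cr w1 w2 = y3 at *
  induction hy using Submodule.span_induction with
  | mem x hx =>
    rcases hx with rfl | rfl | rfl
    · simp only [h01, e1, e2, map_add, map_smul]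
    · simp only [h01, e1, e2, map_add, map_smul]
      module
    · simp only [h01, e1, e2, map_add, map_smul]
  | zero => simp
  | add x x' _ _ hx hx' =>
    simp only [map_add, hx, hx']
    module
  | smul r x _ hx =>
    simp only [map_smul, hx]
    module

end Cfsg.Agent.H905.SixC

namespace Cfsg.Agent.H163.E6.SixC

open Cfsg Cfsg.Lie Module Equiv
open Cfsg.Agent.ChevalleyStructure.E6Min.Tables Cfsg.Agent.ChevalleyStructure.E6Min.Basic
  Cfsg.Agent.ChevalleyStructure.E6Min.Adjoint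
open Cfsg.Agent.H952.F4 (ev es matRep sh cr tf MaxAlt)
open Cfsg.Agent.H958.SixC
open Cfsg.Agent.H905.SixC (rel_cr)

universe u

variable {F : Type u} [Field F] [Finite F] [CharP F 2] {H : Subgroup ↥(chevE6.group F)}
  {φ : ↥(alternatingGroup (Fin 6)) →* ↥(chevE6.group F)}

omit [Finite F] in
/-- the scalar of `β` -/
theorem exists_sc {ω : Fˣ} (h1 : ω ≠ 1) (h3 : ω ^ 3 = 1) {ζ z g₁ g₂ β t a : ↥(φ.range.comap (ad F))}
    (hF : Full ζ z g₁ g₂ β t a) (hζ : ((ζ : ↥(Zgrp F)) : GL I27 F) = scal ω)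
    {ρ : Representation F ↥(Zgrp F) (I27 → F)} (hρ : ρ = V F ∨ ρ = V' F) : ∃ b : F, Sc (rP φ ρ) β b := by
  obtain ⟨c, hc⟩ := ch_pr h1 h3 hζ hρ
  have h2 : (2 : F) = 0 := CharTwo.two_eq_zero
  have hc2 : c * c + c + 1 = 0 := by
    have h4 := hc.cube
    have h5 : (c - 1) * (c * c + c + 1) = 0 := by linear_combination h4
    exact (mul_eq_zero.1 h5).resolve_left (sub_ne_zero.2 hc.ne)
  have hc3 : c * c * c = 1 := by rw [← hc.cube]; ring
  rcases hF.beta with rfl | rfl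
  · exact ⟨c, hc.act, hc2, h2⟩
  · refine ⟨c * c, fun v => ?_, by linear_combination c * hc3 + hc2, h2⟩
    have h6 : rP φ ρ ζ⁻¹ (rP φ ρ ζ ((c * c) • v)) = (c * c) • v := inv_ap _ _ _
    rw [hc.act, smul_smul, show c * (c * c) = 1 by rw [← hc3]; ring, one_smul] at h6
    exact h6

/-- **Q1**: the products of a subspace of type 1 form a subspace of type 2. -/
theorem cr_ty (hS : Sit H 6 φ) {ω : Fˣ} (hω : Cover φ ω) {ζ z g₁ g₂ β t a : ↥(φ.range.comap (ad F))}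
    (hF : Full ζ z g₁ g₂ β t a) (hζ : ((ζ : ↥(Zgrp F)) : GL I27 F) = scal ω)
    {ρ ρ' : Representation F ↥(Zgrp F) (I27 → F)} (hp : Pr ρ ρ') {W : Submodule F (I27 → F)}
    (h : Ty φ ρ z g₁ W) : Ty φ ρ' z g₂ (crs W W) := by
  have h2 : (2 : F) = 0 := CharTwo.two_eq_zero
  obtain ⟨b, hs⟩ := exists_sc hω.1 hω.2.1 hF hζ hp.left
  have hs' := sc_pr hω.2.1 hζ hF.beta hp hs
  have hdr := hd hS.inj hω hp.left
  have hdr' := hd hS.inj hω hp.right
  obtain ⟨w, hw, h0, k⟩ := h.k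
  have hst : St (rP φ ρ) W := st_iff.2 h.st
  have hr := rr_zero hdr hF.h1 hs hst h.d hw k h0
  have hS3 : S3 (rP φ ρ) z g₁ w = W := by
    apply Submodule.eq_of_le_of_finrank_eq (S3_le hst hw)
    rw [S3_three hdr hF.h1 hs k hr h0, h.d]
  obtain ⟨w0, e0⟩ : ∃ w0, w0 = rP φ ρ g₁ w := ⟨_, rfl⟩
  obtain ⟨w1, e1⟩ : ∃ w1, w1 = rP φ ρ z w0 := ⟨_, rfl⟩
  obtain ⟨w2, e2⟩ : ∃ w2, w2 = rP φ ρ z w1 := ⟨_, rfl⟩
  have e3 : rP φ ρ z w2 = w0 + b • w1 + b • w2 := by
    have hx := Hx.of_KF hF.h1 hs k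
    obtain ⟨q, -, -⟩ := hx.rels hs.b2 hs.two hr
    rw [← e0, ← e1, ← e2] at q
    exact q
  rw [S3, ← e0, ← e1, ← e2] at hS3
  -- the stable subspace of the products
  obtain ⟨hcs, hcd⟩ := H401.SixU3.crS_aux h2 hS (div3 hS.inj hω) hp.left hp.right (fun g x y => hp.cr g x y) h.st h.d
  have hcs' : Stab ρ' φ.range (crs W W) := hcs
  have hcd' : finrank F ↥(crs W W) = 3 := hcd
  have hle : crs W W ≤ Submodule.span F ({cr w0 w1, cr w0 w2, cr w1 w2} : Set (I27 → F)) := by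
    refine H401.SixU3.crSpan_le h2 (S := W) fun u hu => ?_
    rw [← hS3, Submodule.mem_span_triple] at hu
    obtain ⟨p, q, r, rfl⟩ := hu
    exact ⟨p, q, r, rfl⟩
  have hcr : ∀ g : ↥(φ.range.comap (ad F)), ∀ x y, rP φ ρ' g (cr x y) = cr (rP φ ρ g x) (rP φ ρ g y) :=
    fun g x y => hp.cr _ x y
  have hrel : ∀ y ∈ crs W W, rP φ ρ' z (rP φ ρ' z (rP φ ρ' z y)) =
      y + b • rP φ ρ' z y + b • rP φ ρ' z (rP φ ρ' z y) := by
    intro y hy
    refine rel_cr (T := rP φ ρ' z) h2 (w0 := w0) (w1 := w1) (w2 := w2) ?_ ?_ ?_ (hle hy)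
    · rw [hcr, ← e1, ← e2]
    · rw [hcr, ← e1, e3]
    · rw [hcr, ← e2, e3]
  rcases ty_cases hω.1 hω.2.1 hF hζ hp.right hcs' hcd' with ⟨⟨-, -, x, hx, hx0, kx⟩, -⟩ | ⟨ht, -⟩
  · exfalso
    have hst' : St (rP φ ρ') (crs W W) := st_iff.2 hcs'
    have hr' := rr_zero hdr' hF.h1 hs' hst' hcd' hx kx hx0
    have hS3' := S3_three hdr' hF.h1 hs' kx hr' hx0
    have hx0' : rP φ ρ' g₁ x ∈ crs W W := hst' g₁ x hx
    have q1 := hrel _ hx0'
    have hh := Hx.of_KF hF.h1 hs' kx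
    obtain ⟨q2, -, -⟩ := hh.rels hs'.b2 hs'.two hr'
    rw [S3] at hS3'
    generalize rP φ ρ' g₁ x = x0 at *
    generalize rP φ ρ' z x0 = x1 at *
    generalize rP φ ρ' z x1 = x2 at *
    rw [q1] at q2
    -- `(b + b²) (x1 + x2) = 0`
    have q3 : (0 : F) • x0 + (b - b * b) • x1 + (b - b * b) • x2 = 0 := by
      have q4 : (0 : F) • x0 + (b - b * b) • x1 + (b - b * b) • x2 =
          (x0 + b • x1 + b • x2) - (x0 + (b * b) • x1 + (b * b) • x2) := by module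
      rw [q4, q2, sub_self]
    have q5 := (indep3 hS3' q3).2.1
    have q6 := hs.b2
    have q7 : (1 : F) = 0 := by linear_combination q6 - q5 - (b * b) * h2
    exact one_ne_zero q7
  · exact ht

end Cfsg.Agent.H163.E6.SixC
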